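import Mathlib
import Cfsg.Agent.ClassicalGeometry.TwoFamilies

/-!
# Elements of prime order in isometry groups: dimensions of the moved spaces (helper105, DP8 of S5734)

`V` is a finite dimensional space over a finite field `F` with a nondegenerate bilinear form, symmetric or alternating,
alternating in characteristic 2. If `g` is an isometry with `g ^ u = 1`, `u` an odd prime different from the
characteristic, then `lcm 2 (orderOf |F| mod u)` divides `dim (g - 1) V`.
-/

set_option autoImplicit false

namespace Cfsg.Agent.H105.Dp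

open Module

/-- a nondegenerate reflexive form, alternating in characteristic two -/
structure Frm (F V : Type*) [Field F] [AddCommGroup V] [Module F V] where
  B : V →ₗ[F] V →ₗ[F] F
  nd : ∀ x, (∀ y, B x y = 0) → x = 0
  refl : ∀ x y, B x y = 0 → B y x = 0
  alt : (2 : F) = 0 → ∀ x, B x x = 0

variable {F V : Type*} [Field F] [AddCommGroup V] [Module F V]

/-- isometries -/
def Iso (b : Frm F V) (g : V →ₗ[F] V) : Prop := ∀ x y, b.B (g x) (g y) = b.B x y

theorem Iso.one (b : Frm F V) : Iso b 1 := fun _ _ => rfl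

theorem Iso.mul {b : Frm F V} {g h : V →ₗ[F] V} (hg : Iso b g) (hh : Iso b h) : Iso b (g * h) :=
  fun x y => (hg (h x) (h y)).trans (hh x y)

theorem Iso.pow {b : Frm F V} {g : V →ₗ[F] V} (hg : Iso b g) (n : ℕ) : Iso b (g ^ n) := by
  induction n with
  | zero => exact Iso.one b
  | succ n ih => rw [pow_succ]; exact ih.mul hg

section

variable [FiniteDimensional F V]

/-- the adjoint of `g` is `g ^ (u - 1)` -/
theorem det_adj (b : Frm F V) {g g' : V →ₗ[F] V} (h : ∀ x y, b.B (g x) y = b.B x (g' y)) (c : F) :
    LinearMap.det (g - c • 1) = LinearMap.det (g' - c • 1) := by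
  have hinj : Function.Injective (b.B.flip : V →ₗ[F] Dual F V) := by
    rw [← LinearMap.ker_eq_bot, LinearMap.ker_eq_bot']
    intro y hy
    refine b.nd y fun x => b.refl x y ?_
    exact LinearMap.congr_fun hy x
  have hfr : finrank F V = finrank F (Dual F V) := Subspace.dual_finrank_eq.symm
  let e : V ≃ₗ[F] Dual F V := LinearEquiv.ofInjectiveOfFinrankEq b.B.flip hinj hfr
  have he : ∀ y x, e y x = b.B x y := fun y x => rfl
  have h1 : (g - c • 1).dualMap = e ∘ₗ (g' - c • 1) ∘ₗ e.symm := by
    apply LinearMap.ext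
    intro φ
    obtain ⟨y, rfl⟩ := e.surjective φ
    apply LinearMap.ext
    intro x
    show e y ((g - c • 1) x) = e ((g' - c • 1) (e.symm (e y))) x
    rw [e.symm_apply_apply, he, he, LinearMap.sub_apply, LinearMap.sub_apply, map_sub, map_sub,
      LinearMap.sub_apply, h]
    congr 1
    show b.B (c • x) y = b.B x (c • y)
    rw [map_smul, map_smul, LinearMap.smul_apply]
  rw [← LinearMap.det_dualMap, h1]
  exact LinearMap.det_conj _ e

theorem even_finrank (b : Frm F V) {g : V →ₗ[F] V} (hg : Iso b g) {u : ℕ} (hu : Odd u) (hgu : g ^ u = 1)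
    (hfix : ∀ v, g v = v → v = 0) : Even (finrank F V) := by
  by_cases h2 : (2 : F) = 0
  · obtain ⟨m, hm⟩ := Cfsg.Agent.ClassicalGeometry.TwoFamilies.exists_finrank_eq_ker_add b.B (b.alt h2)
    have hker : LinearMap.ker b.B = ⊥ := by
      rw [eq_bot_iff]
      intro x hx
      rw [LinearMap.mem_ker] at hx
      exact b.nd x fun y => LinearMap.congr_fun hx y
    rw [hker, finrank_bot, zero_add] at hm
    exact ⟨m, hm⟩
  · by_contra hodd
    rw [Nat.not_even_iff_odd] at hodd
    have hu1 : 1 ≤ u := hu.pos
    have hadj : ∀ x y, b.B (g x) y = b.B x ((g ^ (u - 1)) y) := by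
      intro x y
      have h1 : g ((g ^ (u - 1)) y) = y := by
        have : g * g ^ (u - 1) = 1 := by rw [← pow_succ', Nat.sub_add_cancel hu1, hgu]
        exact LinearMap.congr_fun this y
      nth_rewrite 1 [← h1]
      exact hg _ _
    have hd0 : LinearMap.det g = LinearMap.det g ^ (u - 1) := by
      have := det_adj b hadj 0
      rwa [zero_smul, sub_zero, sub_zero, map_pow] at this
    have hdu : LinearMap.det g ^ u = 1 := by rw [← map_pow, hgu, map_one]
    have hd2 : LinearMap.det g ^ 2 = 1 := by
      rw [pow_two]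
      nth_rewrite 2 [hd0]
      rw [← pow_succ', Nat.sub_add_cancel hu1, hdu]
    have hd1 : LinearMap.det g = 1 := by
      obtain ⟨k, hk⟩ := hu
      rw [hk, pow_succ, pow_mul, hd2, one_pow, one_mul] at hdu
      exact hdu
    have h3 : LinearMap.det (g - 1) = LinearMap.det (g ^ (u - 1) - 1) := by
      have := det_adj b hadj 1
      rwa [one_smul] at this
    have h4 : g ^ (u - 1) - 1 = (-1 : F) • (g ^ (u - 1) * (g - 1)) := by
      rw [mul_sub, mul_one, ← pow_succ, Nat.sub_add_cancel hu1, hgu, neg_one_smul, neg_sub]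
    rw [h4, LinearMap.det_smul, map_mul, map_pow, hd1, one_pow, one_mul, Odd.neg_one_pow hodd, neg_one_mul] at h3
    have h5 : LinearMap.det (g - 1) = 0 := by
      have h6 : (2 : F) * LinearMap.det (g - 1) = 0 := by
        rw [two_mul]
        nth_rewrite 1 [h3]
        exact neg_add_cancel _
      exact (mul_eq_zero.1 h6).resolve_left h2
    have h7 : LinearMap.ker (g - 1) ≠ ⊥ := by
      intro h8
      have := LinearMap.isUnit_iff_ker_eq_bot (g - 1) |>.2 h8
      exact (this.map (LinearMap.det : (V →ₗ[F] V) →* F)).ne_zero h5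
    apply h7
    rw [eq_bot_iff]
    intro v hv
    rw [LinearMap.mem_ker, LinearMap.sub_apply, sub_eq_zero] at hv
    exact hfix v hv

end

end Cfsg.Agent.H105.Dp
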