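import Cfsg.Agent.H105.Dp.Lin

/-!
# Elements of prime order in isometry groups: dimensions of the moved spaces, part 2 (helper105, DP8 of S5734)
-/

set_option autoImplicit false

namespace Cfsg.Agent.H105.Dp

open Module

variable {F V : Type*} [Field F] [AddCommGroup V] [Module F V] [FiniteDimensional F V]

/-- a fixed point free linear map of prime order -/
theorem orderOf_dvd_finrank [Finite F] {u : ℕ} (hu : u.Prime) (huF : (u : F) ≠ 0) {g : V →ₗ[F] V}
    (hgu : g ^ u = 1) (hfix : ∀ v, g v = v → v = 0) :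
    orderOf ((Nat.card F : ℕ) : ZMod u) ∣ finrank F V := by
  classical
  have hfu := Fact.mk hu
  have hfinV : Finite V := Module.finite_of_finite F
  -- the unit
  have hu1 : 1 ≤ u := hu.pos
  let a : (V →ₗ[F] V)ˣ := ⟨g, g ^ (u - 1), by rw [← pow_succ', Nat.sub_add_cancel hu1, hgu],
    by rw [← pow_succ, Nat.sub_add_cancel hu1, hgu]⟩
  have hau : a ^ u = 1 := Units.ext hgu
  have hp : IsPGroup u (Subgroup.zpowers a) := by
    intro ⟨x, hx⟩
    obtain ⟨k, rfl⟩ := hx
    refine ⟨1, Subtype.ext ?_⟩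
    show (a ^ k) ^ u ^ 1 = 1
    rw [pow_one, ← zpow_natCast, ← zpow_mul, mul_comm, zpow_mul, zpow_natCast, hau, one_zpow]
  let _ : MulAction (Subgroup.zpowers a) V :=
    { smul := fun x v => ((x : (V →ₗ[F] V)ˣ) : V →ₗ[F] V) v
      one_smul := fun v => rfl
      mul_smul := fun x y v => rfl }
  have hfinE : Finite (V →ₗ[F] V) := Finite.of_injective (fun e : V →ₗ[F] V => (e : V → V)) DFunLike.coe_injective
  have h1 := hp.card_modEq_card_fixedPoints V
  have h2 : MulAction.fixedPoints (Subgroup.zpowers a) V = {0} := by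
    ext v
    rw [MulAction.mem_fixedPoints, Set.mem_singleton_iff]
    constructor
    · intro h
      exact hfix v (h ⟨a, Subgroup.mem_zpowers a⟩)
    · rintro rfl x
      exact map_zero ((x : (V →ₗ[F] V)ˣ) : V →ₗ[F] V)
  have h2' : Nat.card (MulAction.fixedPoints (Subgroup.zpowers a) V) = 1 := by
    rw [h2]; exact Nat.card_unique
  rw [h2'] at h1
  rw [orderOf_dvd_iff_pow_eq_one]
  rw [← Nat.cast_pow, ← Module.natCard_eq_pow_finrank (K := F) (V := V)]
  have h3 := (ZMod.natCast_eq_natCast_iff _ _ _).2 h1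
  rw [h3, Nat.cast_one]

/-- the restriction of a form to an orthogonal summand -/
def Frm.restrict (b : Frm F V) (W W' : Submodule F V) (hc : IsCompl W W') (ho : ∀ x ∈ W, ∀ y ∈ W', b.B x y = 0) :
    Frm F W where
  B := (b.B.domRestrict₁₂ W W)
  nd x hx := by
    apply Subtype.ext
    refine b.nd x fun y => ?_
    obtain ⟨w, hw, w', hw', rfl⟩ := Submodule.mem_sup.1 (show y ∈ W ⊔ W' by rw [hc.sup_eq_top]; trivial)
    rw [map_add, ho x x.2 w' hw', add_zero]
    exact hx ⟨w, hw⟩
  refl x y h := b.refl x y h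
  alt h x := b.alt h x

omit [FiniteDimensional F V] in
theorem ort {b : Frm F V} {g : V →ₗ[F] V} (hg : Iso b g) {x y : V} (hx : g x = x) (hy : y ∈ LinearMap.range (g - 1)) :
    b.B x y = 0 := by
  obtain ⟨w, rfl⟩ := hy
  rw [LinearMap.sub_apply, map_sub, Module.End.one_apply]
  nth_rewrite 1 [← hx]
  rw [hg, sub_self]

theorem isCompl_ker_range {g : V →ₗ[F] V} {m : ℕ} (hm : (m : F) ≠ 0) (hg : g ^ m = 1) :
    IsCompl (LinearMap.ker (g - 1)) (LinearMap.range (g - 1)) := by
  have hdim := LinearMap.finrank_range_add_finrank_ker (g - 1)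
  rw [Submodule.isCompl_iff_disjoint _ _ (by omega), Submodule.disjoint_def]
  rintro v hv ⟨w, hw⟩
  rw [LinearMap.mem_ker, LinearMap.sub_apply, sub_eq_zero] at hv
  have hv : g v = v := hv
  have hw' : g w = w + v := by
    rw [← hw]
    show g w = w + (g w - w)
    abel
  have h1 : ∀ k : ℕ, (g ^ k) w = w + k • v := by
    intro k
    induction k with
    | zero => simp
    | succ k ih =>
      rw [pow_succ']
      show g ((g ^ k) w) = _
      rw [ih, map_add, map_nsmul, hw', hv, succ_nsmul]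
      abel
  have h2 := h1 m
  rw [hg] at h2
  have h3 : m • v = 0 := by
    have : w = w + m • v := h2
    exact left_eq_add.1 this
  rw [← Nat.cast_smul_eq_nsmul F] at h3
  exact (smul_eq_zero.1 h3).resolve_left hm

/-- the number `E` -/
noncomputable def ee (F : Type*) [Field F] (u : ℕ) : ℕ := Nat.lcm 2 (orderOf ((Nat.card F : ℕ) : ZMod u))

theorem ee_dvd_finrank [Finite F] (b : Frm F V) {u : ℕ} (hu : u.Prime) (hu2 : u ≠ 2) (huF : (u : F) ≠ 0)
    {g : V →ₗ[F] V} (hg : Iso b g) (hgu : g ^ u = 1) (hfix : ∀ v, g v = v → v = 0) : ee F u ∣ finrank F V :=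
  Nat.lcm_dvd (even_finrank b hg (hu.odd_of_ne_two hu2) hgu hfix).two_dvd (orderOf_dvd_finrank hu huF hgu hfix)

theorem ee_dvd_range [Finite F] (b : Frm F V) {u : ℕ} (hu : u.Prime) (hu2 : u ≠ 2) (huF : (u : F) ≠ 0)
    {g : V →ₗ[F] V} (hg : Iso b g) (hgu : g ^ u = 1) : ee F u ∣ finrank F (LinearMap.range (g - 1)) := by
  have hc := isCompl_ker_range huF hgu
  have hW : ∀ v ∈ LinearMap.range (g - 1), g v ∈ LinearMap.range (g - 1) := by
    rintro v ⟨w, rfl⟩
    refine ⟨g w, ?_⟩
    show g (g w) - g w = g (g w - w)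
    rw [map_sub]
  refine ee_dvd_finrank (b.restrict _ _ hc.symm fun x hx y hy => ?_) hu hu2 huF (g := g.restrict hW) ?_ ?_ ?_
  · rw [LinearMap.mem_ker, LinearMap.sub_apply, sub_eq_zero] at hy
    exact b.refl _ _ (ort hg hy hx)
  · intro x y
    exact hg x y
  · rw [Module.End.pow_restrict]
    apply LinearMap.ext
    intro v
    apply Subtype.ext
    show (g ^ u) (v : V) = v
    rw [hgu]
    rfl
  · intro v hv
    have h1 : g v = v := congrArg Subtype.val hv
    have h2 : (v : V) ∈ LinearMap.ker (g - 1) := by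
      rw [LinearMap.mem_ker, LinearMap.sub_apply, sub_eq_zero]
      exact h1
    exact Subtype.ext (Submodule.disjoint_def.1 hc.disjoint _ h2 v.2)

theorem ee_pos [Finite F] {u : ℕ} (hu : u.Prime) (huF : (u : F) ≠ 0) : 0 < ee F u := by
  have hf := Fact.mk hu
  apply Nat.lcm_pos two_pos
  have hF : Fintype F := Fintype.ofFinite F
  have h1 : ((Nat.card F : ℕ) : ZMod u) ≠ 0 := by
    intro h
    rw [ZMod.natCast_eq_zero_iff] at h
    obtain ⟨p, hp⟩ := CharP.exists F
    obtain ⟨n, hpp, hn⟩ := FiniteField.card F p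
    rw [Nat.card_eq_fintype_card, hn] at h
    have h2 := (Nat.prime_dvd_prime_iff_eq hu hpp).1 (hu.dvd_of_dvd_pow h)
    apply huF
    rw [h2]
    exact CharP.cast_eq_zero F p
  exact orderOf_pos_iff.2 (isOfFinOrder_iff_pow_eq_one.2 ⟨u - 1, Nat.sub_pos_of_lt hu.one_lt, ZMod.pow_card_sub_one_eq_one h1⟩)

/-- commuting isometries of order `u` have the same fixed space if the dimension is less than `2 E` -/
theorem fix_le [Finite F] (b : Frm F V) {u : ℕ} (hu : u.Prime) (hu2 : u ≠ 2) (huF : (u : F) ≠ 0)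
    (hdim : finrank F V < 2 * ee F u) {g h : V →ₗ[F] V} (hg : Iso b g) (hgu : g ^ u = 1) (hg1 : g ≠ 1)
    (hh : Iso b h) (hhu : h ^ u = 1) (hgh : g * h = h * g) {v : V} (hv : g v = v) : h v = v := by
  have hc := isCompl_ker_range huF hgu
  have hW : ∀ v ∈ LinearMap.ker (g - 1), h v ∈ LinearMap.ker (g - 1) := by
    intro v hv
    rw [LinearMap.mem_ker, LinearMap.sub_apply, sub_eq_zero] at hv ⊢
    have hv : g v = v := hv
    show g (h v) = h v
    rw [← Module.End.mul_apply, hgh, Module.End.mul_apply, hv]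
  have hd1 := ee_dvd_range b hu hu2 huF hg hgu
  have hd2 : finrank F (LinearMap.range (g - 1)) ≠ 0 := by
    intro h0
    apply hg1
    rw [Submodule.finrank_eq_zero, LinearMap.range_eq_bot, sub_eq_zero] at h0
    exact h0
  have hd3 : ee F u ≤ finrank F (LinearMap.range (g - 1)) := Nat.le_of_dvd (Nat.pos_of_ne_zero hd2) hd1
  have hd4 := LinearMap.finrank_range_add_finrank_ker (g - 1)
  let b' : Frm F (LinearMap.ker (g - 1)) := b.restrict _ _ hc fun x hx y hy => by
    rw [LinearMap.mem_ker, LinearMap.sub_apply, sub_eq_zero] at hx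
    exact ort hg hx hy
  have hh' : Iso b' (h.restrict hW) := fun x y => hh x y
  have hhu' : (h.restrict hW) ^ u = 1 := by
    rw [Module.End.pow_restrict]
    apply LinearMap.ext
    intro v
    apply Subtype.ext
    show (h ^ u) (v : V) = v
    rw [hhu]
    rfl
  have hd5 := ee_dvd_range b' hu hu2 huF hh' hhu'
  have hd6 := Submodule.finrank_le (LinearMap.range (h.restrict hW - 1))
  have hd7 : finrank F (LinearMap.range (h.restrict hW - 1)) = 0 := by
    by_contra h0
    have := Nat.le_of_dvd (Nat.pos_of_ne_zero h0) hd5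
    omega
  rw [Submodule.finrank_eq_zero, LinearMap.range_eq_bot, sub_eq_zero] at hd7
  have hv' : v ∈ LinearMap.ker (g - 1) := by
    rw [LinearMap.mem_ker, LinearMap.sub_apply, sub_eq_zero]; exact hv
  have h8 := LinearMap.congr_fun hd7 ⟨v, hv'⟩
  exact congrArg Subtype.val h8

end Cfsg.Agent.H105.Dp
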